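import Cfsg.Agent.H18.E7h

/-! Fixed spaces of small subgroups of `E₇(2)` on the 56-dimensional module. -/

set_option autoImplicit false

namespace H20.E7

open Module H16 Subgroup H18.E7

local notation:max "Fz " g:max => Module.End.eigenspace (ρ g) (1 : K)

theorem t15 {y z : G} (a1 : y ^ 5 = 1) (a2 : y ≠ 1) (a4 : z ^ 3 = 1) (a6 : Commute y z) :
    (fr (Fz y ⊓ Fz z), fr (Fz z)) ∈
      [(0, 32), (2, 2), (4, 20), (6, 14), (8, 32), (12, 20), (16, 56)] := by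
  have b2 : fr (Fz y) = 16 := t5' a1 a2
  obtain ⟨ζ, hζ⟩ := ex_prim (l := 15) (by decide)
  have hω := hζ.pow (by decide) (show 15 = 5 * 3 from rfl)
  have hη := hζ.pow (by decide) (show 15 = 3 * 5 from rfl)
  have b5 := (tab (by decide) tb15 hζ (s := y * z) (by
    rw [a6.mul_pow, show y ^ 15 = (y ^ 5) ^ 3 by group, show z ^ 15 = (z ^ 3) ^ 5 by group, a1, a4]
    simp)).1
  have c1 := wtc hω (W := Fz y) (fun _ => Fz_map a6) a4
  have c2 := wtc hη (W := Fz z) (fun _ => Fz_map a6.symm) a1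
  have c3 : ∀ j : ZMod 3, _ := fun j => eig_mul a6 a1 a4 (μ := (ζ ^ 5) ^ j.val)
    (by rw [← pow_mul, mul_comm, pow_mul, hω.pow_eq_one, one_pow]) (a := 2) (b := 3) rfl
  have c4 : ∀ j : ZMod 5, _ := fun j => eig_mul a6.symm a4 a1 (μ := (ζ ^ 3) ^ j.val)
    (by rw [← pow_mul, mul_comm, pow_mul, hη.pow_eq_one, one_pow]) (a := 2) (b := 1) rfl
  have c5 : dm _ (_ ^ 0) = fr (_ ⊓ (ρ z).eigenspace (_ ^ 0)) := c3 0
  simp only [fr_eq, ← c3] at c1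
  simp only [fr_eq, ← c4, ← a6.eq] at c2
  have d2 : ∀ j : ZMod 5, dm (y * z) ((ζ ^ 3) ^ (2 * j).val) = dm (y * z) ((ζ ^ 3) ^ j.val) :=
    fun j => by rw [two_val hη, ← dm_Φ]
  replace c1 : _ = dm (y * z) ((ζ ^ 5) ^ 0) + (dm (y * z) ((ζ ^ 5) ^ 1) +
    (dm (y * z) ((ζ ^ 5) ^ 2) + 0)) := c1
  replace c2 : _ = dm (y * z) ((ζ ^ 3) ^ 0) + (dm (y * z) ((ζ ^ 3) ^ 1) + (dm (y * z) ((ζ ^ 3) ^ 2) +
    (dm (y * z) ((ζ ^ 3) ^ 3) + (dm (y * z) ((ζ ^ 3) ^ 4) + 0)))) := c2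
  have d3 := dm_Φ (y * z) (ζ ^ 5)
  have d4 : dm _ (_ ^ 2) = dm _ (_ ^ 1) := d2 1
  have d5 : dm _ (_ ^ 4) = dm _ (_ ^ 2) := d2 2
  have d6 : dm _ (_ ^ 3) = dm _ (_ ^ 4) := d2 4
  replace b5 : (dm (y * z) (ζ ^ 0), dm (y * z) (ζ ^ 1), dm (y * z) (ζ ^ 3),
    dm (y * z) (ζ ^ 5)) ∈ _ := b5
  simp only [pow_zero, pow_one, List.mem_cons, Prod.mk.injEq, List.not_mem_nil,
    or_false] at b5 c1 c2 c5 d4 ⊢
  have e1 : 2 * dm (y * z) (ζ ^ 5) + dm (y * z) 1 = 16 := by omega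
  have e2 : fr (Fz z) = dm (y * z) 1 + 4 * dm (y * z) (ζ ^ 3) := by omega
  rw [← c5, e2]
  clear c1 c2 c3 c4 c5 d2 d3 d4 d5 d6 e2
  rcases b5 with h | h | h | h | h | h | h | h | h | h | h | h <;> omega

theorem pw5 {y a : G} (a1 : y ^ 5 = 1) (a3 : a ^ 5 = 1) (a5 : Commute y a) (i : ℕ) :
    (y ^ i * a) ^ 5 = 1 := by
  rw [(a5.pow_left i).mul_pow, ← pow_mul, mul_comm i, pow_mul, a1, a3]; simp

theorem eight {y a : G} (a1 : y ^ 5 = 1 ∧ y ≠ 1) (a2 : ∀ i < 5, y ^ i * a ≠ 1) (a3 : a ^ 5 = 1)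
    (a5 : Commute y a) : fr (Fz y ⊓ Fz a) = 8 := by
  have b1 := pair (l := 5) (by decide) (by decide +kernel) (W := ⊤) (fun _ _ => trivial)
    (fun _ _ => trivial) (fun v _ => comm_app a5 v) a1.1 a3
  have b2 : fr (Fz y) = 16 := t5' a1.1 a1.2
  rw [List.map_congr_left (g := fun _ => 16) fun i hi => by
    rw [top_inf_eq]
    exact t5' (pw5 a1.1 a3 a5 i) (a2 i (List.mem_range.1 hi)), top_inf_eq, top_inf_eq, b2] at b1
  simp only [List.map_const', List.length_range, List.sum_replicate, smul_eq_mul, fr_top] at b1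
  omega

/-- `5 × A₅` -/
theorem five {y a z : G} (a1 : y ^ 5 = 1 ∧ y ≠ 1) (a2 : ∀ i < 5, y ^ i * a ≠ 1) (a3 : a ^ 5 = 1)
    (a4 : z ^ 3 = 1) (a5 : Commute y a) (a6 : Commute y z) (h : z ^ 2 = a ^ 1 * z * a ^ 1) :
    (fr (Fz y ⊓ Fz z), fr (Fz z)) ∈ [(8, 32), (12, 20), (16, 56)] := by
  have b1 := eight a1 a2 a3 a5
  have b2 := trick3 a3 a4 h (W := Fz y) fun _ => Fz_map a6
  have b3 := t15 a1.1 a1.2 a4 a6
  simp only [fr_eq, List.mem_cons, Prod.mk.injEq, List.not_mem_nil, or_false] at b2 b3 ⊢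
  omega

theorem half {W : Submodule K V} {t : G} (h1 : ∀ v ∈ W, ρ t v ∈ W) (h2 : ∀ v ∈ W, ρ t (ρ t v) = v) :
    fr W ≤ 2 * fr (W ⊓ Fz t) := by
  have h3 : ∀ v ∈ W, (ρ t - 1 : End K V) v ∈ W ⊓ Fz t := fun v hv => ⟨W.sub_mem (h1 v hv) hv, fix1.2 (by
    simp only [LinearMap.sub_apply, End.one_apply, map_sub, h2 v hv]
    exact funext fun i => by simp [CharTwo.sub_eq_add, add_comm])⟩
  have h4 := ((ρ t - 1 : End K V).restrict h3).finrank_range_add_finrank_ker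
  have h5 := Submodule.finrank_le (LinearMap.range ((ρ t - 1 : End K V).restrict h3))
  have h6 : finrank K ↥((LinearMap.ker ((ρ t - 1 : End K V).restrict h3)).map W.subtype) ≤
      fr (W ⊓ Fz t) := Submodule.finrank_mono (by
    rintro _ ⟨v, hv, rfl⟩
    exact ⟨v.2, fix1.2 (sub_eq_zero.1 (congrArg Subtype.val hv :))⟩)
  rw [Submodule.finrank_map_subtype_eq] at h6
  simp only [fr_eq] at h4 h5
  unfold fr at *
  omega

theorem dm_four {t : G} (h : t ^ 4 = 1) : 14 ≤ dm t 1 := by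
  have h1 := dm_two (t := t * t) (by rw [← h, ← sq, ← pow_mul])
  have h2 := half (W := Fz (t * t)) (t := t) (fun _ => Fz_map ((Commute.refl t).mul_left (.refl t)))
    fun v hv => by simpa using fix1.1 hv
  have h3 : fr (Fz (t * t) ⊓ Fz t) ≤ fr (Fz t) := Submodule.finrank_mono inf_le_right
  simp only [dm_eq] at h1 ⊢
  omega

theorem conj_le {u z y z' y' : G} (h1 : u * z = z' * u) (h2 : u * y = y' * u) :
    fr (Fz z ⊓ Fz y) ≤ fr (Fz z' ⊓ Fz y') :=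
  inj_le (ρ u) (ρ u⁻¹) (fun v hv => ⟨fix1.2 (by
      rw [← End.mul_apply, ← map_mul, ← h1, map_mul, End.mul_apply, fix1.1 hv.1]), fix1.2 (by
      rw [← End.mul_apply, ← map_mul, ← h2, map_mul, End.mul_apply, fix1.1 hv.2])⟩)
    fun v _ => H23.Wag.ρ_cancel' ..

theorem pow_le (z y : G) (k : ℕ) : fr (Fz z ⊓ Fz y) ≤ fr (Fz z ⊓ Fz (y ^ k)) :=
  Submodule.finrank_mono (inf_le_inf_left _ fun _ hv => fix1.2 (pow_fix (fix1.1 hv) k))

/-- the subgroup `(5² × 3).3` of `L₃(16)` -/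
theorem no75 {p q z u : G} (a1 : p ^ 5 = 1 ∧ p ≠ 1) (a2 : ∀ i < 5, p ^ i * q ≠ 1) (a3 : q ^ 5 = 1)
    (a4 : z ^ 3 = 1) (a5 : Commute p q) (a6 : Commute p z) (a7 : Commute q z) (b1 : u * z = z * u)
    (b2 : u * p = q * u) (b3 : u * q = p ^ 4 * q ^ 4 * u) (c1 : z ≠ 1) (c2 : 16 ≤ dm z 1) : False := by
  have d0 := pair (l := 5) (by decide) (by decide +kernel) (W := Fz z) (fun _ => Fz_map a6.symm)
    (fun _ => Fz_map a7.symm) (fun v _ => comm_app a5 v) a1.1 a3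
  have k : ∀ i j, u * (p ^ i * q ^ j) = q ^ i * (p ^ 4 * q ^ 4) ^ j * u := fun i j => by
    have e1 : ∀ {x y : G}, u * x = y * u → ∀ i, u * x ^ i = y ^ i * u := fun h i =>
      (SemiconjBy.pow_right h i).eq
    rw [← mul_assoc, e1 b2, mul_assoc, e1 b3, mul_assoc]
  have k' : ∀ i j, q ^ i * (p ^ 4 * q ^ 4) ^ j = p ^ (4 * j % 5) * q ^ ((i + 4 * j) % 5) := fun i j => by
    rw [← pow_eq_pow_mod _ a1.1, ← pow_eq_pow_mod _ a3, (a5.pow_pow 4 4).mul_pow, ← pow_mul, ← pow_mul,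
      ← mul_assoc, ← (a5.pow_pow _ _).eq, mul_assoc, ← pow_add]
  have k2 : ∀ i j m, (p ^ i * q ^ j) ^ m = p ^ (i * m % 5) * q ^ (j * m % 5) := fun i j m => by
    rw [← pow_eq_pow_mod _ a1.1, ← pow_eq_pow_mod _ a3, (a5.pow_pow _ _).mul_pow, ← pow_mul, ← pow_mul]
  obtain ⟨F, hF⟩ : ∃ F : ℕ → ℕ → ℕ, ∀ i j, fr (Fz z ⊓ Fz (p ^ i * q ^ j)) = F i j := ⟨_, fun _ _ => rfl⟩
  have e1 : ∀ i j, F i j ≤ F (4 * j % 5) ((i + 4 * j) % 5) := fun i j => by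
    rw [← hF, ← hF, ← k']; exact conj_le b1 (k i j)
  have e2 : ∀ i j m, F i j ≤ F (i * m % 5) (j * m % 5) := fun i j m => by
    rw [← hF, ← hF, ← k2]; exact pow_le ..
  have f1 : F 1 0 ≤ F 0 1 := e1 1 0
  have f2 : F 0 1 ≤ F 4 4 := e1 0 1
  have f3 : F 4 4 ≤ F 1 1 := e2 4 4 4
  have f4 : F 1 1 ≤ F 4 0 := e1 1 1
  have f5 : F 4 0 ≤ F 1 0 := e2 4 0 4
  have g1 : F 2 1 ≤ F 4 1 := e1 2 1
  have g2 : F 4 1 ≤ F 4 3 := e1 4 1
  have g3 : F 4 3 ≤ F 3 1 := e2 4 3 2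
  have g4 : F 3 1 ≤ F 4 2 := e1 3 1
  have g5 : F 4 2 ≤ F 2 1 := e2 4 2 3
  have h1 := t15 a1.1 a1.2 a4 a6
  have h2 := t15 (pw5 a1.1 a3 a5 2) (a2 2 (by decide)) a4 ((a6.pow_left 2).mul_left a7)
  have h3 := dm_lt c1
  have i0 := hF 1 0
  have i1 : ∀ i, fr (Fz z ⊓ Fz (p ^ i * q)) = F i 1 := fun i => by rw [← hF, pow_one]
  rw [pow_one, pow_zero, mul_one] at i0
  rw [inf_comm, i0] at h1
  rw [inf_comm, i1] at h2
  simp only [List.range_succ, List.range_zero, List.nil_append, List.cons_append,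
    List.map_cons, List.map_nil, List.sum_cons, List.sum_nil, i0, i1] at d0
  simp only [dm_eq, List.mem_cons, Prod.mk.injEq, List.not_mem_nil, or_false] at h1 h2 h3 c2
  omega

/-- the subgroups `A₅ × A₅` and `3^{1+2}` of `G₂(4)` -/
theorem noA5 {a z c y x : G} (a1 : a ^ 5 = 1 ∧ a ≠ 1) (a2 : ∀ i < 5, a ^ i * c ≠ 1) (a3 : c ^ 5 = 1)
    (a4 : y ^ 3 = 1 ∧ y ≠ 1) (a5 : Commute a c) (a6 : Commute a y) (a7 : y ^ 2 = c ^ 1 * y * c ^ 1)
    (b1 : z ^ 3 = 1 ∧ z ≠ 1) (b2 : ∀ i < 3, (z ^ i * x) ^ 3 = 1 ∧ z ^ i * x ≠ 1) (b3 : Commute y z)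
    (b4 : Commute y x) (b5 : x * z = y * z * x) (b6 : z ^ 2 = a ^ 1 * z * a ^ 1) : False := by
  have c1 := five a1 a2 a3 a4.1 a5 a6 a7
  have c2 := ne32 a4.1 b1 b2 b3 b4 b5
  have c3 := dm_lt a4.2
  have c4 := trick3 a1.1 b1.1 b6 (W := Fz y) fun _ => Fz_map b3
  have c5 := pair (l := 3) (by decide) (by decide) (W := ⊤) (fun _ _ => trivial) (fun _ _ => trivial)
    (fun v _ => comm_app b3 v) a4.1 b1.1
  have c6 : dm (y * z) 1 = dm z 1 := by rw [← dm_conj x z, b5, mul_inv_cancel_right]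
  have c7 : dm (y ^ 2 * z) 1 = dm z 1 := by
    rw [← c6, ← dm_conj x (y * z), ← mul_assoc, ← b4.eq, mul_assoc y x, b5, sq, ← mul_assoc,
      mul_inv_cancel_right, mul_assoc]
  obtain ⟨ω, hω⟩ := ex_prim (l := 3) (by decide)
  have c8 := (t3 hω b1.1 b1.2).1
  rw [inf_comm] at c1
  simp only [top_inf_eq, List.range_succ, List.range_zero, List.nil_append, List.cons_append,
    List.map_cons, List.map_nil, List.sum_cons, List.sum_nil, pow_zero, one_mul, pow_one,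
    fr_top] at c5
  simp only [dm_eq, fr_eq, List.mem_cons, Prod.mk.injEq, List.not_mem_nil, or_false] at c1 c2 c3 c4 c6 c7 c8
  have d1 : Fz y ⊓ Fz z = Fz y := Submodule.eq_of_le_of_finrank_eq inf_le_left (by
    simp only [fr_eq]; omega)
  have d2 : fr (Fz y) ≤ fr (Fz y ⊓ Fz a) := Submodule.finrank_mono fun v hv => ⟨hv, fix1.2 (by
    have e1 := congrArg (ρ · v) b6
    have e2 : ∀ v ∈ Fz y, ρ z v = v := fun v hv => fix1.1 (d1.ge hv).2
    simp only [sq, pow_one, map_mul, End.mul_apply, e2 v hv, e2 _ (Fz_map a6.symm hv)] at e1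
    have e3 := pow_fix (g := a * a) (v := v) (by simpa using e1.symm) 3
    rwa [← sq, ← pow_mul, show 2 * 3 = 5 + 1 from rfl, pow_succ, a1.1, one_mul] at e3)⟩
  omega

/-- the subgroup `5 × A₅` of `U₃(4)` -/
theorem fxU {c a z t g : G} (a1 : c ^ 5 = 1 ∧ c ≠ 1) (a2 : ∀ i < 5, c ^ i * a ≠ 1) (a3 : a ^ 5 = 1)
    (a4 : z ^ 3 = 1) (a5 : Commute c a) (a6 : Commute c z) (h : z ^ 2 = a ^ 1 * z * a ^ 1)
    (b1 : t ^ 2 = 1) (b2 : t * (c * z) * g = g * z) : Fx (closure {t, c * z}) := by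
  have c1 := five a1 a2 a3 a4 a5 a6 h
  have c2 := dm_two b1
  have c3 : fr (Fz c ⊓ Fz z) ≤ dm (c * z) 1 := Submodule.finrank_mono fun v hv => fix1.2 (by
    rw [map_mul, End.mul_apply, fix1.1 hv.2, fix1.1 hv.1])
  have c4 : dm (t * (c * z)) 1 = dm z 1 := by rw [← dm_conj g z, ← b2, mul_inv_cancel_right]
  simp only [List.mem_cons, Prod.mk.injEq, List.not_mem_nil, or_false] at c1
  rw [dm_eq z] at c4
  exact scott (by omega)

theorem nm3 {H : Subgroup G} {S : Type*} [Group S] (e : Cfsg.generalizedFittingSubgroup H ≃* S)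
    (hH : IsCoatom H) (hZ : center S = ⊥) (hA : Nat.card (MulAut S) ∣ 12 * Nat.card S)
    (hb : 12 * Nat.card S ≤ 10 ^ 6) : ¬ Fx (soc e).range := fun h => by
  obtain ⟨_, h0, v, hv, h1⟩ := h.ex
  have h2 : ∀ v : Fin 56 → ZMod 2, v + v = 0 := fun v => funext fun i => CharTwo.add_self_eq_zero _
  obtain ⟨w, a1, a2, a3⟩ := ex_odd h2 (Cfsg.generalizedFittingSubgroup H) hv
    fun g hg => h1 g (soc_mem e hg)
  have a4 := a2.trans (index_dvd e hZ hA)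
  have a5 : (MulAction.stabilizer H w).normalCore.index ∣ 6 := by
    rw [normalCore_eq_ker, index_ker]
    refine (card_subgroup_dvd_card _).trans ?_
    rw [Nat.card_perm, ← index_eq_card]
    have := Nat.le_of_dvd (by decide) a4
    generalize (MulAction.stabilizer H w).index = n at a3 a4 this
    interval_cases n <;> first | omega | decide
  have h3 := nmB (by rw [cardG]; decide) h2 h0 hH _ a5 a1 fun g hg => normalCore_le _ hg
  have := Finite.of_equiv _ e.toEquiv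
  have h4 := (Nat.le_of_dvd (by simp [Nat.card_pos]) ((card_dvd e hZ).trans hA)).trans hb
  rw [cardG, Nat.card_fun, Nat.card_zmod, Nat.card_fin] at h3
  omega

end H20.E7
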