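import Cfsg.Agent.H20.E7.A
import Cfsg.Agent.H20.E7.LU34
import Cfsg.Agent.H16.L.L34
import Cfsg.Agent.H16.L.G24
import Cfsg.Agent.S0815

/-! `L₃(4)`, `U₃(4)` and `G₂(4)` are not socles of maximal subgroups of `E₇(2)`. -/

set_option autoImplicit false

namespace H20.E7

open Module H16 Subgroup H18.E7
open scoped MatrixGroups

theorem Fx.congr {S S' : Type*} [Group S] [Group S'] (e : S ≃* S') {f : S' →* G}
    (h : Fx (f.comp e.toMonoidHom).range) : Fx f.range :=
  h.mono (by rintro _ ⟨x, rfl⟩; exact ⟨e.symm x, by simp⟩)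

namespace L34

/-- extra letters -/
def Ws : List (List ℕ) := [[0, 5, 4, 1], [0, 4, 0, 3, 5]]
/-- the letters as words in the extra letters -/
def Gs : List (List ℕ) := [[6, 7, 7, 7, 6, 6, 7, 6, 6, 6, 7, 7, 7, 6, 6, 7, 7, 6, 7],
  [6, 6, 7, 7, 6, 7, 7, 7, 6, 6, 6, 7, 7, 6, 6, 7, 6, 6, 7], [7, 6, 6, 7, 7, 6],
  [6, 7, 7, 6, 6, 7, 7, 6], [7, 7, 7, 6, 7, 7, 6, 6, 7, 7, 7], [7, 6, 6, 6, 7, 7, 6, 6, 7, 7, 6, 7, 7, 6]]

theorem fx (f : gen L34.g 6 →* G) (hf : Function.Injective f) : Fx f.range := by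
  obtain ⟨h, M, hr⟩ := Md.ex L34.act L34.Blt L34.isBase hf (Ws := Ws) (by decide +kernel)
    (K' := 8) (by decide)
  have a1 := t5' (s := h 6) (by simpa [pow_succ] using M.eq [6, 6, 6, 6, 6] [] (by decide +kernel))
    (by simpa using M.ne [6] 0 (by decide +kernel))
  have a2 := t5' (s := h 7) (by simpa [pow_succ] using M.eq [7, 7, 7, 7, 7] [] (by decide +kernel))
    (by simpa using M.ne [7] 0 (by decide +kernel))
  have a3 := dm_two (t := h 6 * h 7)
    (by simpa [pow_succ, mul_assoc] using M.eq [7, 6, 7, 6] [] (by decide +kernel))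
  refine (scott (x := h 6) (y := h 7) (by omega)).mono (hr.trans_le (gen_le.2 fun k hk => ?_))
  rw [show h k = evA h (nth [] Gs k) by simpa using M.eq [k] _ (by revert k; decide +kernel)]
  refine evA_mem _ fun j hj => ?_
  obtain rfl | rfl : j = 6 ∨ j = 7 := by revert k j; decide +kernel
  exacts [subset_closure (by simp), subset_closure (by simp)]

end L34

namespace U34

/-- extra letters -/
def Ws : List (List ℕ) := [[0, 0, 0], [1, 3, 4, 0, 0, 2, 4, 1, 4], [0, 0, 0, 0, 0], [3, 4, 2],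
  [2, 0, 4, 0, 3, 3, 1], [0, 0, 0, 0, 0, 0, 0, 0]]
/-- the letters as words in two of the extra letters -/
def Gs : List (List ℕ) := [[10, 10], [8, 10, 8, 10, 10, 8, 10, 8],
  [8, 10, 10, 10, 10, 8, 10, 10, 8, 10, 10, 10, 10, 8, 10, 10, 10, 8, 10, 10, 10, 8],
  [10, 10, 10, 8, 10, 10, 10, 10, 10, 10, 8, 10, 10, 8, 10, 10, 8, 10],
  [10, 10, 10, 8, 10, 10, 8, 10, 10, 10, 10, 10, 8, 10, 10, 10, 10, 10, 8, 10, 10, 8, 10, 10, 10, 8]]

theorem fx (f : gen XU34.g 5 →* G) (hf : Function.Injective f) : Fx f.range := by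
  obtain ⟨h, M, hr⟩ := Md.ex XU34.act XU34.Blt XU34.isBase hf (Ws := Ws) (by decide +kernel)
    (K' := 11) (by decide)
  have a0 : h 10 = h 5 * h 7 := by simpa using M.eq [10] [7, 5] (by decide +kernel)
  refine (fxU (c := h 5) (a := h 6) (z := h 7) (t := h 8) (g := h 9)
    ⟨by simpa [pow_succ] using M.eq [5, 5, 5, 5, 5] [] (by decide +kernel),
      by simpa using M.ne [5] 1 (by decide +kernel)⟩
    (fun i hi => by
      simpa [A13.evA_rep] using M.ne (6 :: List.replicate i 5) 1 (by revert i; decide +kernel))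
    (by simpa [pow_succ] using M.eq [6, 6, 6, 6, 6] [] (by decide +kernel))
    (by simpa [pow_succ] using M.eq [7, 7, 7] [] (by decide +kernel))
    (show _ = _ by simpa using M.eq [6, 5] [5, 6] (by decide +kernel))
    (show _ = _ by simpa using M.eq [7, 5] [5, 7] (by decide +kernel))
    (by simpa [pow_succ] using M.eq [7, 7] [6, 7, 6] (by decide +kernel))
    (by simpa [pow_succ] using M.eq [8, 8] [] (by decide +kernel))
    (by simpa [mul_assoc] using M.eq [9, 7, 5, 8] [7, 9] (by decide +kernel))).mono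
    (hr.trans_le (gen_le.2 fun k hk => ?_))
  rw [show h k = evA h (nth [] Gs k) by simpa using M.eq [k] _ (by revert k; decide +kernel), ← a0]
  refine evA_mem _ fun j hj => ?_
  obtain rfl | rfl : j = 8 ∨ j = 10 := by revert k j; decide +kernel
  exacts [subset_closure (by simp), subset_closure (by simp)]

end U34

namespace G24

/-- extra letters -/
def Ws : List (List ℕ) := [[1, 2, 0, 5, 4, 2, 6, 4, 5, 6, 3, 4, 5, 4, 3, 0, 2],
  [0, 3, 0, 5, 4, 3, 4, 6, 4, 5, 6, 4, 3, 1, 2, 6, 5], [2, 4, 3, 4, 2, 5, 4, 2, 1, 4, 5, 4, 2, 4],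
  [4, 5, 0, 2, 4, 3, 4, 3, 1, 5, 4], [0, 3, 5, 6, 4, 2, 1, 5]]

theorem no (f : gen G24.g 7 →* G) (hf : Function.Injective f) : False := by
  obtain ⟨h, M, -⟩ := Md.ex G24.act G24.Blt G24.isBase hf (Ws := Ws) (by decide +kernel)
    (K' := 12) (by decide)
  exact noA5 (a := h 7) (z := h 8) (c := h 9) (y := h 10) (x := h 11)
    ⟨by simpa [pow_succ] using M.eq [7, 7, 7, 7, 7] [] (by decide +kernel),
      by simpa using M.ne [7] 1 (by decide +kernel)⟩
    (fun i hi => by
      simpa [A13.evA_rep] using M.ne (9 :: List.replicate i 7) 1 (by revert i; decide +kernel))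
    (by simpa [pow_succ] using M.eq [9, 9, 9, 9, 9] [] (by decide +kernel))
    ⟨by simpa [pow_succ] using M.eq [10, 10, 10] [] (by decide +kernel),
      by simpa using M.ne [10] 1 (by decide +kernel)⟩
    (show _ = _ by simpa using M.eq [9, 7] [7, 9] (by decide +kernel))
    (show _ = _ by simpa using M.eq [10, 7] [7, 10] (by decide +kernel))
    (by simpa [pow_succ] using M.eq [10, 10] [9, 10, 9] (by decide +kernel))
    ⟨by simpa [pow_succ] using M.eq [8, 8, 8] [] (by decide +kernel),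
      by simpa using M.ne [8] 1 (by decide +kernel)⟩
    (fun i hi => ⟨by
      simpa only [evA_replicate_flatten, evA_cons, A13.evA_rep, evA_nil] using M.eq (List.replicate 3
        (11 :: List.replicate i 8)).flatten [] (by revert i; decide +kernel), by
      simpa [A13.evA_rep] using M.ne (11 :: List.replicate i 8) 1 (by revert i; decide +kernel)⟩)
    (show _ = _ by simpa using M.eq [8, 10] [10, 8] (by decide +kernel))
    (show _ = _ by simpa using M.eq [11, 10] [10, 11] (by decide +kernel))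
    (by simpa using M.eq [8, 11] [11, 8, 10] (by decide +kernel))
    (by simpa [pow_succ] using M.eq [8, 8] [7, 8, 7] (by decide +kernel))

end G24

variable {F : Type*} [Field F] [Fintype F]

theorem noG24 (hF : Fintype.card F = 4) (f : Cfsg.Lie.chevG2.group F →* G)
    (hf : Function.Injective f) : False :=
  LG24.equiv.elim fun e => (LG24.congr (FiniteField.ringEquivOfCardEq (K := H11.F4) (K' := F)
    (by rw [hF]; rfl))).elim fun e' =>
      G24.no (f.comp (e.trans e').toMonoidHom) (hf.comp (e.trans e').injective)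

variable {H : Subgroup G} (hH : IsCoatom H)
include hH

theorem noL34 (hF : Fintype.card F = 4) (e : Cfsg.generalizedFittingSubgroup H ≃* PSL(3, F)) :
    False := by
  replace e := e.trans (H11.pslCongr (Equiv.refl _)
    (FiniteField.ringEquivOfCardEq (K' := H11.F4) (by rw [hF]; rfl)))
  obtain ⟨e'⟩ := LL34.equiv
  have := H11.psl_simple (ι := Fin 3) (F := H11.F4) (by simp)
  have h1 := LL34.cardX
  have h2 := H11.card_units_mul_card_sl (ι := Fin 3) (F := H11.F4)
  have h3 := Cfsg.Agent.S0813.result (F := H11.F4) 2 2 (by decide) rfl 3 (by decide) (by decide)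
  rw [H11.card_pgl_eq_card_sl] at h3
  rw [Matrix.card_GL_field, Fin.prod_univ_three, show Fintype.card H11.F4 = 4 from rfl] at h2
  norm_num [-Nat.card_eq_fintype_card] at h2 h3
  exact nm3 e hH (center_bot (by omega)) (Dvd.intro 1 (by omega)) (by omega)
    (Fx.congr e' (L34.fx _ ((soc_inj e).comp e'.injective)))

theorem noU34 (hF : Fintype.card F = 16) (e : Cfsg.generalizedFittingSubgroup H ≃* Cfsg.PSU 3 F 4) :
    False := by
  replace e := e.trans (H11.psuCongr 3 4
    (FiniteField.ringEquivOfCardEq (K' := H27.Iso.F16) (by rw [hF]; rfl)))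
  obtain ⟨e'⟩ := LXU34.equiv
  have := XU34.simple
  have := e'.symm.isSimpleGroup
  have h1 := LXU34.cardX
  have h3 := Cfsg.Agent.S0815.result (F := H27.Iso.F16) 2 2 (by decide) (q := 4) rfl rfl 3 le_rfl
    (by decide)
  norm_num [-Nat.card_eq_fintype_card] at h3
  exact nm1 e hH (center_bot (by omega)) (a := 2) (Dvd.intro 1 (by omega)) (by omega)
    (Fx.congr e' (U34.fx _ ((soc_inj e).comp e'.injective)))

end H20.E7
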