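import Cfsg.Agent.H20.E7.A
import Cfsg.Agent.H8.SZ0
import Cfsg.Agent.H27.PG1
import Cfsg.Agent.S2126

/-! `Sz(8)` is not the socle of a maximal subgroup of `E₇(2)`; `L₃(16)` is not a subgroup. -/

set_option autoImplicit false

namespace H20.E7

open Module H16 Subgroup
open scoped MatrixGroups

open H23 H23.Sz H8.SZ H8.SZ.F8 in
theorem sz_gen (A : Type*) [Group A] [Model F8 A] : ∃ x y : A, x ^ 2 = 1 ∧ y ^ 4 = 1 ∧
    (x * y) ^ 5 = 1 ∧ x * y ≠ 1 ∧ closure {x, y} = ⊤ := by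
  refine ⟨W F8, T (e 2) (e 2), by rw [sq, W_W], ρ_inj (F := F8) ?_, ρ_inj (F := F8) ?_, fun h => ?_, ?_⟩
  · rw [map_pow, ρ_T, map_one]; decide +kernel
  · rw [map_pow, map_mul, ρ_T, ρ_W, map_one]; decide +kernel
  · have := congrArg (ρ F8) h
    rw [map_mul, ρ_T, ρ_W, map_one] at this
    exact absurd this (by decide +kernel)
  have a0 : (W F8 : A) ∈ closure {W F8, (T (e 2) (e 2) : A)} := subset_closure (by simp)
  have a1 : (T (e 2) (e 2) : A) ∈ closure {W F8, (T (e 2) (e 2) : A)} := subset_closure (by simp)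
  generalize closure {W F8, (T (e 2) (e 2) : A)} = S at a0 a1 ⊢
  let o : F8ˣ := Units.mk0 (e 5) (by decide +kernel)
  have a2 : (M o : A) ∈ S := by
    have := evA_mem (A := S) (fun k => if k = 0 then W F8 else T (e 2) (e 2))
      (W := [0, 1, 1, 0, 1, 0, 1, 1, 0, 1, 1, 0, 1, 1, 1, 0, 1, 1]) fun j _ => by split_ifs <;> assumption
    refine (congrArg (· ∈ S) (ρ_inj (F := F8) ?_)).mp this
    rw [map_evA, ρ_M]
    simp only [apply_ite (ρ F8), ρ_T, ρ_W]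
    decide +kernel
  have a3 : ∀ (i : ℕ) a b, (T a b : A) ∈ S → (T ((e 5 ^ i) ^ 2 / (e 5 ^ i) ^ 4 * a) ((e 5 ^ i) ^ 4 * b) : A) ∈ S :=
    fun i a b h => by
      have := S.mul_mem (S.mul_mem (S.pow_mem a2 i) h) (S.inv_mem (S.pow_mem a2 i))
      rwa [← map_pow, M_T_conj] at this
  have a4 : ∀ d : F8, (T 0 d : A) ∈ S := fun d => by
    have h := S.mul_mem a1 a1
    rw [T_mul] at h
    obtain rfl | ⟨i, rfl, e'⟩ := (by decide +kernel : ∀ d : F8, d = 0 ∨ ∃ i : Fin 7,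
      d = (e 5 ^ i.1) ^ 4 * (e 2 + e 2 + e 2 ^ 4 * e 2) ∧
        (e 5 ^ i.1) ^ 2 / (e 5 ^ i.1) ^ 4 * (e 2 + e 2) = 0) d
    · rw [T_zero]; exact S.one_mem
    · rw [← e']; exact a3 i _ _ h
  refine eq_top_of_Q_le (F := F8) ?_ a0 W_notMem_B
  rintro _ ⟨c, d, rfl⟩
  obtain rfl | ⟨i, rfl⟩ := (by decide +kernel : ∀ c : F8, c = 0 ∨ ∃ i : Fin 7,
    c = (e 5 ^ i.1) ^ 2 / (e 5 ^ i.1) ^ 4 * e 2) c
  · exact a4 d
  have := S.mul_mem (a3 i _ _ a1) (a4 ((e 5 ^ i.1) ^ 4 * e 2 + d))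
  rwa [T_mul, add_zero, mul_zero, add_zero, ← add_assoc, aa, zero_add] at this

open H18.E7

open H23 H23.Sz H8.SZ in
theorem noSz8 {F : Type*} [Field F] [Fintype F] {H : Subgroup G} (hH : IsCoatom H)
    (hF : Fintype.card F = 8) (e : Cfsg.generalizedFittingSubgroup H ≃* Cfsg.Lie.Sz F 4) : False := by
  have h2 := card_eq_card_quotient_mul_card_subgroup (Cfsg.Inn (Cfsg.Lie.Sz F 4))
  rw [show Nat.card (_ ⧸ Cfsg.Inn (Cfsg.Lie.Sz F 4)) = 3 from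
    Cfsg.Agent.S2126.result (m := 1) le_rfl hF] at h2
  let _ := titsOfCard (m := 1) hF
  let _ : Model F (Cfsg.Lie.Sz F 4) := lieModel (m := 1) hF
  obtain ⟨f⟩ := nonempty_equiv_subG (F := F) (G := Cfsg.Lie.Sz F 4) (SzG F8) (K := F8) (F0 := ⊤)
    (by rw [Nat.card_congr Subfield.topEquiv.toEquiv, Nat.card_eq_fintype_card, hF, F8.ncard])
  let _ : Model F8 (Cfsg.Lie.Sz F 4) :=
    Model.ofEquiv (topEquiv.symm.trans ((MulEquiv.subgroupCongr subG_top.symm).trans f))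
  have := isSimpleGroup F8 (Cfsg.Lie.Sz F 4)
  have h1 := card_G F8 (Cfsg.Lie.Sz F 4)
  rw [F8.ncard] at h1
  have hZ := center_bot (S := Cfsg.Lie.Sz F 4) (by rw [h1]; decide)
  rw [← Nat.card_congr (MonoidHom.ofInjective ((injective_iff_map_eq_one _).2 fun g hg =>
    mem_bot.1 (hZ.le (mem_center_iff.2 fun x =>
      (mul_inv_eq_iff_eq_mul.1 (DFunLike.congr_fun hg x)).symm)))).toEquiv] at h2
  obtain ⟨x, y, a1, a2, a3, a4, a5⟩ := sz_gen (Cfsg.Lie.Sz F 4)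
  have b1 := dm_two (t := soc e x) (by rw [← map_pow, a1, map_one])
  have b2 := dm_four (t := soc e y) (by rw [← map_pow, a2, map_one])
  have b3 := t5' (s := soc e x * soc e y) (by rw [← map_mul, ← map_pow, a3, map_one])
    (by rwa [← map_mul, Ne, map_eq_one_iff _ (soc_inj e)])
  refine nm2 e hH hZ (Dvd.intro 2 (by omega)) (by omega) ((scott (x := soc e x) (y := soc e y)
    (by omega)).mono ?_)
  rw [MonoidHom.range_eq_map, ← a5, MonoidHom.map_closure, Set.image_pair]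

open H27.Iso H27.Iso.F16 in
theorem noL316 {F : Type*} [Field F] [Fintype F] (hF : Fintype.card F = 16) (f : PSL(3, F) →* G)
    (hf : Function.Injective f) : False := by
  let e' := H11.pslCongr (Equiv.refl (Fin 3))
    (FiniteField.ringEquivOfCardEq (K := F16) (K' := F) (by rw [hF]; rfl))
  let φ : SL(3, F16) →* G := (f.comp e'.toMonoidHom).comp (QuotientGroup.mk' _)
  have c1 : ∀ x, φ x = 1 ↔ ∃ r : F16, r ^ 3 = 1 ∧ Matrix.scalar _ r = x.1 := fun x =>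
    (map_eq_one_iff (f.comp e'.toMonoidHom) (hf.comp e'.injective)).trans ((QuotientGroup.eq_one_iff x).trans
      Matrix.SpecialLinearGroup.mem_center_iff)
  clear_value φ
  have c2 : ∀ x : SL(3, F16), x.1 0 0 ≠ x.1 1 1 ∨ x.1 1 1 ≠ x.1 2 2 → φ x ≠ 1 := fun x h k => by
    obtain ⟨r, -, k⟩ := (c1 x).1 k
    simp [← k] at h
  obtain ⟨p, hp⟩ : ∃ p : SL(3, F16), p.1 = !![e 8, 0, 0; 0, e 15, 0; 0, 0, 1] :=
    ⟨⟨_, by decide +kernel⟩, rfl⟩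
  obtain ⟨q, hq⟩ : ∃ p : SL(3, F16), p.1 = !![1, 0, 0; 0, e 8, 0; 0, 0, e 15] :=
    ⟨⟨_, by decide +kernel⟩, rfl⟩
  obtain ⟨z, hz⟩ : ∃ p : SL(3, F16), p.1 = !![1, 0, 0; 0, e 6, 0; 0, 0, e 7] :=
    ⟨⟨_, by decide +kernel⟩, rfl⟩
  obtain ⟨u, hu⟩ : ∃ p : SL(3, F16), p.1 = !![0, 0, 1; 1, 0, 0; 0, 1, 0] :=
    ⟨⟨_, by decide +kernel⟩, rfl⟩
  obtain ⟨a, ha⟩ : ∃ p : SL(3, F16), p.1 = !![1, 0, 0; 0, 1, 1; 0, e 6, e 7] :=
    ⟨⟨_, by decide +kernel⟩, rfl⟩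
  obtain ⟨s, hs⟩ : ∃ p : SL(3, F16), p.1 = !![e 7, 0, 0; 0, e 7, 0; 0, 0, e 7] :=
    ⟨⟨_, by decide +kernel⟩, rfl⟩
  have c3 : φ s = 1 := (c1 s).2 ⟨e 7, by decide +kernel, by rw [hs]; decide +kernel⟩
  obtain ⟨d1, d2, d3, d4, d5, d6, d7, d8, d9, d10, d11, d12⟩ : p ^ 5 = 1 ∧ q ^ 5 = 1 ∧ z ^ 3 = 1 ∧
      p * q = q * p ∧ p * z = z * p ∧ q * z = z * q ∧ u * z = s * z * u ∧ u * p = q * u ∧
      u * q = p ^ 4 * q ^ 4 * u ∧ a ^ 5 = 1 ∧ z ^ 2 = a ^ 1 * z * a ^ 1 ∧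
      ∀ i < 5, (p ^ i * q).1 0 0 ≠ (p ^ i * q).1 1 1 ∨ (p ^ i * q).1 1 1 ≠ (p ^ i * q).1 2 2 := by
    have k : ∀ x y : SL(3, F16), x = y ↔ x.1 = y.1 := fun _ _ => Subtype.ext_iff
    simp only [k, Matrix.SpecialLinearGroup.coe_mul, Matrix.SpecialLinearGroup.coe_pow,
      Matrix.SpecialLinearGroup.coe_one, hp, hq, hz, hu, ha, hs]
    decide +kernel
  apply_fun φ at d1 d2 d3 d4 d5 d6 d7 d8 d9 d10 d11
  simp only [map_mul, map_pow, map_one, c3, one_mul] at d1 d2 d3 d4 d5 d6 d7 d8 d9 d10 d11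
  exact no75 ⟨d1, c2 p (by rw [hp]; decide +kernel)⟩
    (fun i hi => by simpa only [map_mul, map_pow] using c2 _ (d12 i hi)) d2 d3 d4 d5 d6 d7 d8 d9
    (c2 z (by rw [hz]; decide +kernel)) (trick3' d10 (c2 a (by rw [ha]; decide +kernel)) d3 d11)

end H20.E7
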